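import Cfsg.Agent.H838.IF.Defs

/-!
# S5719, `PSU_4(q)`, pieces W3a, W3b, W3c (helper248)

Transvections with centre in a nondegenerate plane / three-space; the group `H` contains them.
-/

set_option autoImplicit false
set_option linter.unusedSectionVars false

namespace Cfsg.Agent.H248.UF

open Module Subgroup Cfsg Cfsg.Agent.H91.U Cfsg.Agent.H450.UF Cfsg.Agent.H450.Bs Cfsg.Agent.H209.Fxy
open Cfsg.Agent.H838.IF
open Cfsg.Agent.ClassicalGeometry.HermWitt (trace_surj norm_surj)

variable {F V : Type*} [Field F] [Fintype F] [AddCommGroup V] [Module F V] [FiniteDimensional F V] {σ : F →+* F}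
  {B : V →ₛₗ[σ] V →ₗ[F] F} {H : Subgroup (V ≃ₗ[F] V)} {q : ℕ}

/-- `y` is reached from `x` by an element of `H` which is trivial on `P^⊥` -/
def R (B : V →ₛₗ[σ] V →ₗ[F] F) (H : Subgroup (V ≃ₗ[F] V)) (P : Submodule F V) (x y : V) : Prop :=
  ∃ h ∈ H, h x = y ∧ ∀ u ∈ pp B P, h u = u

omit [Fintype F] [FiniteDimensional F V] in
theorem R.trans {P : Submodule F V} {x y z : V} (h1 : R B H P x y) (h2 : R B H P y z) : R B H P x z := by
  obtain ⟨g, hg, hgx, hgu⟩ := h1
  obtain ⟨h, hh, hhy, hhu⟩ := h2
  refine ⟨h * g, H.mul_mem hh hg, ?_, fun u hu => ?_⟩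
  · rw [LinearEquiv.mul_apply, hgx, hhy]
  · rw [LinearEquiv.mul_apply, hgu u hu, hhu u hu]

omit [Fintype F] [FiniteDimensional F V] in
theorem R.tv (hB : HForm B) {P : Submodule F V} (hO : On B H P) {c : V} (hc : c ∈ P) (h0 : c ≠ 0) (hcc : B c c = 0)
    {l : F} (hl : l + σ l = 0) (x : V) : R B H P x (x + (l * B c x) • c) := by
  obtain ⟨g, hg⟩ := exists_tv hcc l
  refine ⟨g, hO c hc h0 hcc l hl g hg, hg x, fun u hu => ?_⟩
  rw [hg, hB.swap_zero (hu c hc), mul_zero, zero_smul, add_zero]

omit [Fintype F] in
/-- coordinates in a nondegenerate plane -/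
theorem plane_coord [Finite F] (hB : HForm B) {P : Submodule F V} (hP : NP B P) {e f : V} (he : e ∈ P) (hf : f ∈ P)
    (hee : B e e = 0) (hff : B f f = 0) (hef : B e f = 1) {x : V} (hx : x ∈ P) :
    x = (B f x) • e + (B e x) • f := by
  have hfe : B f e = 1 := by rw [sw hB e f, hef, map_one]
  have hli : LinearIndependent F ![e, f] := by
    rw [LinearIndependent.pair_iff]
    intro s t hst
    have h1 := congrArg (B e) hst
    have h2 := congrArg (B f) hst
    rw [map_add, smul_right, smul_right, hee, hef, map_zero] at h1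
    rw [map_add, smul_right, smul_right, hff, hfe, map_zero] at h2
    exact ⟨by linear_combination h2, by linear_combination h1⟩
  have hsp : Submodule.span F {e, f} = P := by
    apply Submodule.eq_of_le_of_finrank_eq
    · rw [Submodule.span_le]
      rintro z (rfl | rfl)
      · exact he
      · exact hf
    · rw [hP.dim]
      have := finrank_span_eq_card hli
      rw [Matrix.range_cons, Matrix.range_cons, Matrix.range_empty, Set.union_empty, Fintype.card_fin] at this
      rw [Set.insert_eq]
      exact this
  rw [← hsp, Submodule.mem_span_pair] at hx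
  obtain ⟨a, b, rfl⟩ := hx
  have h1 : B f (a • e + b • f) = a := by
    rw [map_add, smul_right, smul_right, hfe, hff]; ring
  have h2 : B e (a • e + b • f) = b := by
    rw [map_add, smul_right, smul_right, hee, hef]; ring
  rw [h1, h2]

/-- **W3a** -/
theorem plane_trans (hB : HForm B) (_hF : Fintype.card F = q ^ 2) {P : Submodule F V} (hP : NP B P)
    (hO : On B H P) {x y : V} (hx : x ∈ P) (hy : y ∈ P) (hn : B x x ≠ 0) (he : B x x = B y y) :
    ∃ h ∈ H, h x = y ∧ ∀ u ∈ pp B P, h u = u := by
  obtain ⟨e, heP, f, hfP, hee, hff, hef⟩ := exists_hyp hB hP.nd hP.dim.ge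
  have hfe : B f e = 1 := by rw [sw hB e f, hef, map_one]
  have he0 : e ≠ 0 := by
    rintro rfl
    rw [map_zero, LinearMap.zero_apply] at hef
    exact zero_ne_one hef
  have hf0 : f ≠ 0 := by
    rintro rfl
    rw [map_zero] at hef
    exact zero_ne_one hef
  -- the norm in coordinates
  have nrm : ∀ a b : F, B (a • e + b • f) (a • e + b • f) = σ a * b + σ b * a := by
    intro a b
    rw [map_add (B (a • e + b • f)), map_add B, LinearMap.add_apply, LinearMap.add_apply, smul_left, smul_left,
      smul_left, smul_left, smul_right, smul_right, smul_right, smul_right, hee, hff, hef, hfe]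
    ring
  -- the steps
  have te : ∀ (a b l : F), l + σ l = 0 → R B H P (a • e + b • f) ((a + l * b) • e + b • f) := by
    intro a b l hl
    have h1 := R.tv hB hO heP he0 hee hl (a • e + b • f)
    have h2 : B e (a • e + b • f) = b := by
      rw [map_add, smul_right, smul_right, hee, hef]; ring
    rw [h2] at h1
    have h3 : a • e + b • f + (l * b) • e = (a + l * b) • e + b • f := by
      rw [add_smul]; abel
    rwa [h3] at h1
  have tf : ∀ (a b l : F), l + σ l = 0 → R B H P (a • e + b • f) (a • e + (b + l * a) • f) := by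
    intro a b l hl
    have h1 := R.tv hB hO hfP hf0 hff hl (a • e + b • f)
    have h2 : B f (a • e + b • f) = a := by
      rw [map_add, smul_right, smul_right, hff, hfe]; ring
    rw [h2] at h1
    have h3 : a • e + b • f + (l * a) • f = a • e + (b + l * a) • f := by
      rw [add_smul]; abel
    rwa [h3] at h1
  have ne : ∀ (a b l N : F), l + σ l = 0 → σ a * b + σ b * a = N → σ (a + l * b) * b + σ b * (a + l * b) = N := by
    intro a b l N hl h
    rw [map_add, map_mul]
    linear_combination h + b * σ b * hl
  have nf : ∀ (a b l N : F), l + σ l = 0 → σ a * b + σ b * a = N → σ a * (b + l * a) + σ (b + l * a) * a = N := by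
    intro a b l N hl h
    rw [map_add, map_mul]
    linear_combination h + a * σ a * hl
  -- the generic case
  have gen : ∀ a b a' b' N : F, N ≠ 0 → σ a * b + σ b * a = N → σ a' * b' + σ b' * a' = N →
      b' * σ b - b * σ b' ≠ 0 → R B H P (a • e + b • f) (a' • e + b' • f) := by
    intro a b a' b' N hN h1 h2 h3
    have hNs : σ N = N := by
      rw [← h1]
      simp only [map_add, map_mul, hB.invol]
      ring
    have hb0 : b' ≠ 0 := by
      rintro rfl
      apply hN
      rw [← h2, map_zero]
      ring
    have hsb0 := sig_ne_zero (σ := σ) hb0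
    set c := (b' * σ b - b * σ b') / N with hc
    set d := (a * σ b' + σ a * b') / N with hd
    have hc0 : c ≠ 0 := div_ne_zero h3 hN
    have hcs : c + σ c = 0 := by
      rw [hc, map_div₀, hNs]
      simp only [map_sub, map_mul, hB.invol]
      ring
    have hds : σ d = d := by
      rw [hd, map_div₀, hNs]
      simp only [map_add, map_mul, hB.invol]
      ring
    have hcd : c * a + d * b = b' := by
      rw [hc, hd]
      field_simp
      linear_combination b' * h1
    have hl1 : (d - 1) / c + σ ((d - 1) / c) = 0 := by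
      have hc' : σ c = - c := by linear_combination hcs
      rw [map_div₀, map_sub, hds, map_one, hc']
      rw [div_neg]
      ring
    have s1 := te a b ((d - 1) / c) hl1
    have n1 := ne a b ((d - 1) / c) N hl1 h1
    obtain ⟨z, hz⟩ : ∃ z, z = a + (d - 1) / c * b := ⟨_, rfl⟩
    have h4 : b + c * z = b' := by
      rw [hz]
      field_simp
      linear_combination hcd
    rw [← hz] at s1 n1
    have s2 := tf z b c hcs
    have n2 := nf z b c N hcs n1
    rw [h4] at s2 n2
    have s3 := te z b' ((a' - z) / b') (by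
      rw [map_div₀, map_sub]
      field_simp
      linear_combination h2 - n2)
    have h5 : z + (a' - z) / b' * b' = a' := by
      rw [div_mul_cancel₀ _ hb0]
      ring
    rw [h5] at s3
    exact (s1.trans s2).trans s3
  -- coordinates of `x`, `y`
  have cx := plane_coord hB hP heP hfP hee hff hef hx
  have cy := plane_coord hB hP heP hfP hee hff hef hy
  set a := B f x
  set b := B e x
  set a' := B f y
  set b' := B e y
  have hN1 : σ a * b + σ b * a = B x x := by rw [← nrm, ← cx]
  have hN2 : σ a' * b' + σ b' * a' = B x x := by rw [he, ← nrm, ← cy]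
  rw [cx, cy]
  change R B H P (a • e + b • f) (a' • e + b' • f)
  by_cases h3 : b' * σ b - b * σ b' = 0
  · obtain ⟨t, ht0, ht⟩ := exists_trz hB
    have hb0 : b ≠ 0 := by
      intro h0
      apply hn
      rw [← hN1, h0, map_zero]
      ring
    have hb0' : b' ≠ 0 := by
      intro h0
      apply hn
      rw [← hN2, h0, map_zero]
      ring
    have hts : σ t = - t := by linear_combination ht
    refine (tf a b t ht).trans (gen a (b + t * a) a' b' (B x x) hn ?_ hN2 ?_)
    · rw [← hN1, map_add, map_mul, hts]
      ring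
    · rw [map_add, map_mul, hts]
      intro h4
      -- `b' (σ b - t σ a) - (b + t a) σ b' = - t (b' σ a + a σ b')`
      have h5 : t * (b' * σ a + a * σ b') = 0 := by linear_combination h3 - h4
      have h6 := (mul_eq_zero.1 h5).resolve_left ht0
      have hsb := sig_ne_zero (σ := σ) hb0
      -- multiply by `σ b`: `σ b b' = b σ b'`
      have h7 : σ b' * (σ a * b + σ b * a) = 0 := by linear_combination σ b * h6 - σ a * h3
      rw [hN1] at h7
      exact (mul_ne_zero (sig_ne_zero hb0') hn) h7
  · exact gen a b a' b' (B x x) hn hN1 hN2 h3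

omit [Fintype F] [FiniteDimensional F V] in
/-- a plane with nonzero Gram determinant -/
theorem np_pair {x y : V} (hd : B x x * B y y - B x y * B y x ≠ 0) : NP B (Submodule.span F {x, y}) := by
  have hli : LinearIndependent F ![x, y] := by
    rw [LinearIndependent.pair_iff]
    intro s t hst
    have h1 := congrArg (B x) hst
    have h2 := congrArg (B y) hst
    rw [map_add, smul_right, smul_right, map_zero] at h1 h2
    have e1 : s * (B x x * B y y - B x y * B y x) = 0 := by linear_combination B y y * h1 - B x y * h2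
    have e2 : t * (B x x * B y y - B x y * B y x) = 0 := by linear_combination B x x * h2 - B y x * h1
    exact ⟨(mul_eq_zero.1 e1).resolve_right hd, (mul_eq_zero.1 e2).resolve_right hd⟩
  refine ⟨?_, ?_⟩
  · have := finrank_span_eq_card hli
    rw [Matrix.range_cons, Matrix.range_cons, Matrix.range_empty, Set.union_empty, Fintype.card_fin] at this
    rw [Set.insert_eq]
    exact this
  · intro z hz hz0
    obtain ⟨s, t, rfl⟩ := Submodule.mem_span_pair.1 hz
    have h1 := hz0 x (Submodule.subset_span (Or.inl rfl))
    have h2 := hz0 y (Submodule.subset_span (Or.inr rfl))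
    rw [map_add, LinearMap.add_apply, smul_left, smul_left] at h1 h2
    have e1 : σ s * (B x x * B y y - B x y * B y x) = 0 := by linear_combination B y y * h1 - B y x * h2
    have e2 : σ t * (B x x * B y y - B x y * B y x) = 0 := by linear_combination B x x * h2 - B x y * h1
    rw [(map_eq_zero σ).1 ((mul_eq_zero.1 e1).resolve_right hd), (map_eq_zero σ).1 ((mul_eq_zero.1 e2).resolve_right hd),
      zero_smul, zero_smul, add_zero]

/-- **W3b** -/
theorem On.three (hB : HForm B) (hF : Fintype.card F = q ^ 2) (hH : H ≤ SIso B) {e : Fin 3 → V}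
    (he : ∀ i j, B (e i) (e j) = if i = j then 1 else 0)
    (h1 : On B H (Submodule.span F {e 0, e 1})) (h2 : On B H (Submodule.span F {e 0, e 2})) :
    On B H (Submodule.span F (Set.range e)) := by
  have e00 : B (e 0) (e 0) = 1 := by rw [he, if_pos rfl]
  have e11 : B (e 1) (e 1) = 1 := by rw [he, if_pos rfl]
  have e22 : B (e 2) (e 2) = 1 := by rw [he, if_pos rfl]
  have e01 : B (e 0) (e 1) = 0 := by rw [he, if_neg (by decide)]
  have e02 : B (e 0) (e 2) = 0 := by rw [he, if_neg (by decide)]
  have e10 : B (e 1) (e 0) = 0 := by rw [he, if_neg (by decide)]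
  have e12 : B (e 1) (e 2) = 0 := by rw [he, if_neg (by decide)]
  have e20 : B (e 2) (e 0) = 0 := by rw [he, if_neg (by decide)]
  have e21 : B (e 2) (e 1) = 0 := by rw [he, if_neg (by decide)]
  intro c hc hc0 hcc
  obtain ⟨a, ha⟩ := (Submodule.mem_span_range_iff_exists_fun F).1 hc
  rw [Fin.sum_univ_three] at ha
  have hP : NP B (Submodule.span F {e 0, e 2}) := np_pair (by rw [e00, e22, e02]; norm_num)
  have m0 : e 0 ∈ Submodule.span F {e 0, e 2} := Submodule.subset_span (Or.inl rfl)
  have m2 : e 2 ∈ Submodule.span F {e 0, e 2} := Submodule.subset_span (Or.inr rfl)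
  have hu : a 0 • e 0 + a 2 • e 2 ∈ Submodule.span F {e 0, e 2} :=
    Submodule.add_mem _ (Submodule.smul_mem _ _ m0) (Submodule.smul_mem _ _ m2)
  have hcu : c = (a 0 • e 0 + a 2 • e 2) + a 1 • e 1 := by rw [← ha]; abel
  by_cases ha1 : a 1 = 0
  · rw [ha1, zero_smul, add_zero] at hcu
    rw [← hcu] at hu
    exact h2 c hu hc0 hcc
  have huu : B (a 0 • e 0 + a 2 • e 2) (a 0 • e 0 + a 2 • e 2) = σ (a 0) * a 0 + σ (a 2) * a 2 := by
    rw [map_add (B (a 0 • e 0 + a 2 • e 2)), map_add B, LinearMap.add_apply, LinearMap.add_apply]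
    simp only [smul_left, smul_right, e00, e02, e20, e22]
    ring
  have hsum : σ (a 0) * a 0 + σ (a 2) * a 2 + σ (a 1) * a 1 = 0 := by
    rw [← hcc, hcu, map_add (B (a 0 • e 0 + a 2 • e 2 + a 1 • e 1)), map_add B, LinearMap.add_apply,
      LinearMap.add_apply, huu, smul_right, smul_left, smul_left, smul_right, map_add B, LinearMap.add_apply,
      map_add (B (e 1)), smul_left, smul_left, smul_right, smul_right, e01, e21, e10, e12, e11]
    ring
  obtain ⟨b, hb0, hb⟩ := norm_surj σ hB.ne_id hB.invol (σ (a 0) * a 0 + σ (a 2) * a 2) (by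
    simp only [map_add, map_mul, hB.invol]
    ring) (by
    intro h
    rw [h, zero_add] at hsum
    exact (mul_ne_zero (sig_ne_zero ha1) ha1) hsum)
  have hsb := sig_ne_zero (σ := σ) hb0
  obtain ⟨h, hh, hx, hfix⟩ := plane_trans hB hF hP h2 (x := e 0) (y := b⁻¹ • (a 0 • e 0 + a 2 • e 2)) m0
    (Submodule.smul_mem _ _ hu) (by rw [e00]; exact one_ne_zero) (by
      rw [smul_left, smul_right, huu, e00, ← hb, map_inv₀]
      field_simp)
  have hfix1 : h (e 1) = e 1 := by
    apply hfix
    rw [mem_pp_span]
    rintro z (rfl | rfl)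
    · exact e10
    · exact e12
  have hpp : PP B H (b • e 0 + a 1 • e 1) := by
    apply h1
    · exact Submodule.add_mem _ (Submodule.smul_mem _ _ (Submodule.subset_span (Or.inl rfl)))
        (Submodule.smul_mem _ _ (Submodule.subset_span (Or.inr rfl)))
    · intro h0
      apply ha1
      have := congrArg (B (e 1)) h0
      rw [map_add, smul_right, smul_right, e10, e11, map_zero] at this
      linear_combination this
    · rw [map_add (B (b • e 0 + a 1 • e 1)), map_add B, LinearMap.add_apply, LinearMap.add_apply]
      simp only [smul_left, smul_right, e00, e01, e10, e11]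
      linear_combination hb + hsum
  have hm := hpp.map hh (hH hh).2
  rw [map_add, map_smul, map_smul, hx, hfix1, smul_smul, mul_inv_cancel₀ hb0, one_smul, ← hcu] at hm
  exact hm

/-- **W3c** -/
theorem On.four (hB : HForm B) (hF : Fintype.card F = q ^ 2) (hq : Odd q) (hV : finrank F V = 4) (hH : H ≤ SIso B)
    {v : V} (hv : B v v ≠ 0) (h1 : ∀ c, B v c = 0 → c ≠ 0 → B c c = 0 → PP B H c) {c : V} (hc : B c c = 0)
    (hvc : B v c ≠ 0) (hcc : PP B H c) : On B H ⊤ := by
  have h2 : (2 : F) ≠ 0 := by
    apply Ring.two_ne_zero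
    intro h
    have h3 := FiniteField.even_card_iff_char_two.1 h
    have h4 : Odd (Fintype.card F) := by rw [hF]; exact hq.pow
    rw [Nat.odd_iff] at h4
    omega
  have hsv : σ (B v v) = B v v := self_fix hB v
  -- the vector `w0`
  have split : ∀ c : V, B c c = 0 → B v c ≠ 0 → B v ((B v v / B v c) • c - v) = 0 ∧
      B ((B v v / B v c) • c - v) ((B v v / B v c) • c - v) = - B v v := by
    intro c hc hvc
    have e1 : B v ((B v v / B v c) • c - v) = 0 := by
      rw [map_sub, smul_right, div_mul_cancel₀ _ hvc, sub_self]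
    refine ⟨e1, ?_⟩
    have e2 : B ((B v v / B v c) • c - v) v = 0 := hB.swap_zero e1
    have e3 : B ((B v v / B v c) • c - v) ((B v v / B v c) • c) = B ((B v v / B v c) • c - v) ((B v v / B v c) • c - v) := by
      rw [map_sub (B ((B v v / B v c) • c - v)), e2, sub_zero]
    rw [← e3, map_sub B, LinearMap.sub_apply, smul_left, smul_right, hc, smul_right, div_mul_cancel₀ _ hvc]
    ring
  obtain ⟨hvw0, hw0⟩ := split c hc hvc
  have hp0 : PP B H (((B v v / B v c) • c - v) + v) := by
    rw [sub_add_cancel]
    exact hcc.smul hB _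
  set w0 := (B v v / B v c) • c - v
  -- one step
  have step : ∀ w w' : V, B v w = 0 → B v w' = 0 → B w w = - B v v → B w' w' = - B v v →
      B v v * B v v - B w w' * B w' w ≠ 0 → PP B H (w + v) → PP B H (w' + v) := by
    intro w w' hw hw' hww hww' hd hp
    have hP : NP B (Submodule.span F {w, w'}) := np_pair (by
      rw [hww, hww']
      intro h
      apply hd
      linear_combination h)
    have hO : On B H (Submodule.span F {w, w'}) := by
      intro z hz hz0 hzz
      refine h1 z ?_ hz0 hzz
      obtain ⟨s, t, rfl⟩ := Submodule.mem_span_pair.1 hz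
      rw [map_add, smul_right, smul_right, hw, hw']
      ring
    obtain ⟨h, hh, hx, hfix⟩ := plane_trans hB hF hP hO (x := w) (y := w') (Submodule.subset_span (Or.inl rfl))
      (Submodule.subset_span (Or.inr rfl)) (by rw [hww]; exact neg_ne_zero.2 hv) (by rw [hww, hww'])
    have hfv : h v = v := by
      apply hfix
      rw [mem_pp_span]
      rintro z (rfl | rfl)
      · exact hw
      · exact hw'
    have hm := hp.map hh (hH hh).2
    rwa [map_add, hx, hfv] at hm
  -- all vectors `w`
  have key : ∀ w : V, B v w = 0 → B w w = - B v v → PP B H (w + v) := by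
    intro w hw hww
    by_cases hd : B v v * B v v - B w0 w * B w w0 = 0
    swap
    · exact step w0 w hvw0 hw hw0 hww hd hp0
    -- the plane `C`
    have hCd : NP B (Submodule.span F {v, w0}) := np_pair (by
      rw [hvw0, hw0, zero_mul, sub_zero]
      exact mul_ne_zero hv (neg_ne_zero.2 hv))
    have hdim : finrank F (pp B (Submodule.span F {v, w0})) = 2 := by
      have := finrank_pp hB (Submodule.span F {v, w0})
      rw [hCd.dim, hV] at this
      omega
    have hnd : ∀ x ∈ pp B (Submodule.span F {v, w0}), (∀ y ∈ pp B (Submodule.span F {v, w0}), B x y = 0) → x = 0 := by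
      intro x hx hx0
      apply hB.eq_zero
      intro y
      obtain ⟨a, ha, b, hb, rfl⟩ := exists_decomp hB hCd.nd y
      rw [map_add, hx a ha, hx0 b (fun z hz => hB.swap_zero (hb z hz)), add_zero]
    have memC : ∀ x, x ∈ pp B (Submodule.span F {v, w0}) ↔ B v x = 0 ∧ B w0 x = 0 := by
      intro x
      rw [mem_pp_span]
      constructor
      · intro h
        exact ⟨hB.swap_zero (h v (Or.inl rfl)), hB.swap_zero (h w0 (Or.inr rfl))⟩
      · rintro ⟨h, h'⟩ z (rfl | rfl)
        · exact hB.swap_zero h
        · exact hB.swap_zero h'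
    -- the component of `w`
    have hww0 : B w w0 = σ (B w0 w) := sw hB w0 w
    set α := B w0 w / (- B v v) with hα
    have hsα : σ α = B w w0 / (- B v v) := by rw [hα, map_div₀, map_neg, hsv, ← hww0]
    have hw'C : w - α • w0 ∈ pp B (Submodule.span F {v, w0}) := by
      rw [memC]
      constructor
      · rw [map_sub, smul_right, hw, hvw0]; ring
      · rw [map_sub, smul_right, hw0, hα]
        field_simp
        ring
    have hw'' : B (w - α • w0) (w - α • w0) = 0 := by
      rw [map_sub (B (w - α • w0)), map_sub B, LinearMap.sub_apply, LinearMap.sub_apply, smul_left, smul_right,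
        smul_right, smul_left, hww, hw0, hsα, hα]
      field_simp
      linear_combination -hd
    obtain ⟨e, heC, f, hfC, hee, hff, hef, β, hβ, hwβ⟩ : ∃ e ∈ pp B (Submodule.span F {v, w0}),
        ∃ f ∈ pp B (Submodule.span F {v, w0}), B e e = 0 ∧ B f f = 0 ∧ B e f = 1 ∧ ∃ β : F, (β = 0 ∨ β = 1) ∧
        w - α • w0 = β • e := by
      by_cases h0 : w - α • w0 = 0
      · obtain ⟨e, he, f, hf, h3, h4, h5⟩ := exists_hyp hB hnd hdim.ge
        exact ⟨e, he, f, hf, h3, h4, h5, 0, Or.inl rfl, by rw [h0, zero_smul]⟩
      · obtain ⟨y, hy, hey⟩ : ∃ y ∈ pp B (Submodule.span F {v, w0}), B (w - α • w0) y ≠ 0 := by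
          by_contra hcon
          push Not at hcon
          exact h0 (hnd _ hw'C hcon)
        have h6 : B (w - α • w0) ((B (w - α • w0) y)⁻¹ • y) = 1 := by rw [smul_right, inv_mul_cancel₀ hey]
        obtain ⟨m, hm⟩ := exists_iso hB hw'' h6
        refine ⟨w - α • w0, hw'C, _, Submodule.add_mem _ (Submodule.smul_mem _ _ hy) (Submodule.smul_mem _ m hw'C), hw'',
          hm, ?_, 1, Or.inr rfl, by rw [one_smul]⟩
        rw [map_add, h6, smul_right, hw'', mul_zero, add_zero]
    have hfe : B f e = 1 := by rw [sw hB e f, hef, map_one]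
    rw [memC] at heC hfC
    obtain ⟨t, ht0, ht⟩ := norm_surj σ hB.ne_id hB.invol (- (B v v * B v v)) (by
      rw [map_neg, map_mul, hsv]) (neg_ne_zero.2 (mul_ne_zero hv hv))
    obtain ⟨m, hm⟩ := trace_surj σ hB.ne_id hB.invol (- B v v) (by rw [map_neg, hsv])
    have hst := sig_ne_zero (σ := σ) ht0
    have hwe : w = α • w0 + β • e := by rw [← hwβ]; abel
    have hv1 : B v ((m / σ t) • e + t • f) = 0 := by
      rw [map_add, smul_right, smul_right, heC.1, hfC.1]; ring
    have hw01 : B w0 ((m / σ t) • e + t • f) = 0 := by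
      rw [map_add, smul_right, smul_right, heC.2, hfC.2]; ring
    have h11 : B ((m / σ t) • e + t • f) ((m / σ t) • e + t • f) = - B v v := by
      rw [map_add (B ((m / σ t) • e + t • f)), map_add B, LinearMap.add_apply, LinearMap.add_apply]
      simp only [smul_left, smul_right, hee, hff, hef, hfe, map_div₀, hB.invol]
      field_simp
      linear_combination (σ t * t) * hm
    have hw1 : B w ((m / σ t) • e + t • f) = σ β * t := by
      rw [hwe, map_add B, LinearMap.add_apply, smul_left, hw01, smul_left, map_add (B e), smul_right, smul_right, hee, hef]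
      ring
    have h1w : B ((m / σ t) • e + t • f) w = β * σ t := by
      rw [sw hB w, hw1, map_mul, hB.invol]
    refine step _ w hv1 hw h11 hww ?_ (step w0 _ hvw0 hv1 hw0 h11 ?_ hp0)
    · rw [hw1, h1w]
      rcases hβ with rfl | rfl
      · rw [map_zero]
        intro h
        apply mul_ne_zero hv hv
        linear_combination h
      · rw [map_one]
        intro h
        apply mul_ne_zero h2 (mul_ne_zero hv hv)
        linear_combination h + ht
    · rw [hw01, zero_mul, sub_zero]
      exact mul_ne_zero hv hv
  intro z _ hz0 hzz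
  by_cases hvz : B v z = 0
  · exact h1 z hvz hz0 hzz
  · obtain ⟨hz1, hz2⟩ := split z hzz hvz
    have h3 := (key _ hz1 hz2).smul hB (B v v / B v z)⁻¹
    rwa [sub_add_cancel, smul_smul, inv_mul_cancel₀ (div_ne_zero hv hvz), one_smul] at h3

end Cfsg.Agent.H248.UF
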